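import Cfsg.Agent.H19.Dm0

/-! Part B2 of the 3-local characterization of `S₈` (namespace H15.Dm): `kk`, `hb`. -/

set_option autoImplicit false
set_option synthInstance.maxSize 4000
set_option maxRecDepth 10000

namespace H15.Dm
open Equiv Subgroup H19.Dm

variable {G : Type*} [Group G] {F : P35 →* G} {s : G}

theorem q1 : ∀ x : Perm (Fin 5), Perm.sign x = 1 → ∃ i < 5, ∃ j < 3, ∃ a < 2, ∃ b < 2,
    ((1, x) : P35) = (z' * v) ^ i * (z' * v * z' * (z' * v)⁻¹) ^ j * u ^ a * v ^ b := by decide +kernel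

theorem q2 : ∀ x : P35, x * t = t * x → x * u = u * x → x * w = w * x → x * x = 1 ∧
    (x * v = v * x → x = 1 ∨ x = w ∨ x = u ∨ x = u * w) := by
  rintro ⟨a, b⟩
  revert a b
  decide +kernel

theorem q3 : v * v = 1 ∧ v * t * v = t * u ∧ v * u * v = u ∧ v * w * v = w ∧ v * z * v = z ∧ v * (t * w) * v = t * u * w ∧
    t * w * u * w = t * u ∧ v * (t * u) * v = t ∧ u ≠ w ∧ t * (v * (u * w)) * t = v * w ∧ (z' * v) ^ 5 = 1 ∧ (z' * (v * w)) ^ 5 ≠ 1 ∧
    z' * z = z * z' ∧ z' * w = w * z' ∧ u * z = z * u ∧ u * w = w * u ∧ v * z = z * v ∧ v * w = w * v ∧ u * v = v * u ∧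
    t * z = z * t ∧ t * z' = z' * t ∧ t ^ 3 ≠ 1 := by decide +kernel

theorem q4 : (∀ x : Perm (Fin 5), Perm.sign x = 1 → x * c3.1 = c3.1 * x → x ^ 3 = 1 ∧ (x * u.2 = u.2 * x → x = 1)) ∧
    (∀ a : Perm (Fin 3), ∃ i < 3, ∃ j < 2, ((a, 1) : P35) = z ^ i * w ^ j) ∧ c3.1 ≠ 1 ∧ Perm.sign u.2 = 1 ∧
    ∀ x : Perm (Fin 5), Perm.sign x = 1 ∨ Perm.sign (x * swap 3 4) = 1 := by decide +kernel

theorem gen (K : Subgroup G) (f : P35 →* G) (h1 : f z' ∈ K) (h2 : f u ∈ K) (h3 : f v ∈ K) (x : A5) : f (1, x.1) ∈ K := by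
  obtain ⟨i, -, j, -, a, -, b, -, e⟩ := q1 x.1 (Perm.mem_alternatingGroup.1 x.2)
  have : ∀ {y}, f y ∈ K ↔ y ∈ K.comap f := Iff.rfl
  rw [this] at *
  rw [e]
  exact mul_mem (mul_mem (mul_mem (pow_mem (mul_mem h1 h3) _) (pow_mem (mul_mem (mul_mem (mul_mem h1 h3) h1)
    (inv_mem (mul_mem h1 h3))) _)) (pow_mem h2 _)) (pow_mem h3 _)

theorem fc {x y : P35} (e : x * y = y * x) : Commute (F x) (F y) := by rw [Commute, SemiconjBy, ← map_mul, e, map_mul]

theorem kk (h : Hy F s) (b : CB F s) (c : CN F) : KK F s := by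
  obtain ⟨v2, vt, vu, vw, vz, k1, k2, k3, uw, k4, k5, k6, c1, c2, c3, c4, c5, c6, c7, -, c9, -⟩ := q3
  have b : s * F u * s = F w := b
  have b' : s * F w * s = F u := by rw [← b, h.ss]
  have fv : ∀ {x y : P35}, v * x * v = y → F v * F x * F v = F y := fun e => by rw [← e, map_mul, map_mul]
  have sv : ∀ {x y : G}, F v * x * F v = y → s * F v * s * (s * x * s) * (s * F v * s) = s * y * s := fun e => by
    rw [← e, h.sm, h.sm]
  have V2 : F v * F v = 1 := by rw [← map_mul, v2, map_one]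
  have V2' : s * F v * s * (s * F v * s) = 1 := by rw [← h.sm, V2, mul_one, h.s2]
  have a1 : s * F v * s * F t * (s * F v * s) = F (t * w) := by
    have := sv (fv vt)
    rwa [h.st', map_mul, h.sm, h.st', b, ← map_mul] at this
  have a2 : s * F v * s * F u * (s * F v * s) = F u := by
    have := sv (fv vw)
    rwa [b'] at this
  have a3 : s * F v * s * F w * (s * F v * s) = F w := by
    have := sv (fv vu)
    rwa [b] at this
  have a4 : s * F v * s * F z' * (s * F v * s) = F z' := by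
    have := sv (fv vz)
    rwa [h.sz] at this
  have sv' : s * (s * F v * s) * s = F v := h.ss _
  generalize hv : s * F v * s = y at *
  have cy : ∀ {x : G}, y * x * y = x → Commute x y := fun {x} e => by
    rw [Commute, SemiconjBy]
    calc _ = y * x * y * y := by rw [e]
      _ = _ := by rw [mul_assoc, V2', mul_one]
  have ym : ∀ x x' : G, y * (x * x') * y = y * x * y * (y * x' * y) := fun x x' => by
    rw [show y * x * y * (y * x' * y) = y * x * (y * y) * x' * y by group, V2']; group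
  have iv : (F v * y)⁻¹ = y * F v := inv_eq_of_mul_eq_one_right (by rw [mul_assoc, ← mul_assoc y, V2', one_mul, V2])
  have z1 : Commute ((F v * y) ^ 2) (F t) := by
    have e1 : F v * y * F t * (F v * y)⁻¹ = F (t * u * w) := by
      rw [iv, ← fv k1, ← a1]; group
    have e2 : F v * y * F (t * u * w) * (F v * y)⁻¹ = F t := by
      rw [iv, ← fv k3, show F (t * u) = y * F (t * u * w) * y by
        rw [map_mul F (t * u) w, show F (t * u) * F w = F t * F u * F w by rw [map_mul], ym, ym, a1, a2, a3, ← map_mul, ← map_mul, k2]]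
      group
    rw [Commute, SemiconjBy, ← mul_inv_eq_iff_eq_mul]
    calc _ = F v * y * (F v * y * F t * (F v * y)⁻¹) * (F v * y)⁻¹ := by rw [pow_two]; group
      _ = _ := by rw [e1, e2]
  have z2 : Commute ((F v * y) ^ 2) (F u) := ((fc c7).symm.mul_left (cy a2).symm).pow_left 2
  have z3 : Commute ((F v * y) ^ 2) (F w) := ((fc c6).mul_left (cy a3).symm).pow_left 2
  have z4 : s * (F v * y) ^ 2 * s = ((F v * y) ^ 2)⁻¹ := by rw [← inv_pow, iv, pow_two, pow_two, h.sm, h.sm, hv, sv']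
  have z5 : F v * (F v * y) ^ 2 * F v = ((F v * y) ^ 2)⁻¹ := by
    rw [← inv_pow, iv, pow_two, pow_two, ← mul_assoc, ← mul_assoc, ← mul_assoc, V2]; group
  have key : Commute (F v) y := by
    obtain ⟨x, e⟩ | ⟨x, e⟩ := h.hD _ (c (mem_centralizer_singleton_iff.2 z1.eq))
    · rw [← e] at z1 z2 z3 z4 z5
      have inj : ∀ {a}, Commute (F x) (F a) → x * a = a * x := fun k => h.inj (by rw [map_mul, map_mul, k.eq])
      obtain ⟨x2, k⟩ := q2 x (inj z1) (inj z2) (inj z3)
      have xi : (F x)⁻¹ = F x := inv_eq_of_mul_eq_one_right (by rw [← map_mul, x2, map_one])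
      rw [xi] at z4 z5
      rcases k (h.inj (by rw [map_mul, map_mul, ← z5, mul_assoc, V2, mul_one, z5])) with rfl | rfl | rfl | rfl
      · rw [map_one, eq_comm, pow_two, mul_eq_one_iff_eq_inv, iv] at e
        exact e
      · exact (uw (h.inj (b'.symm.trans z4))).elim
      · exact (uw (h.inj (b.symm.trans z4)).symm).elim
      · have e1 : y * F v * y = F (v * (u * w)) := by rw [map_mul, e, pow_two, ← mul_assoc, ← mul_assoc (F v) (F v), V2]; group
        have t2 : (F t)⁻¹ = F t := inv_eq_of_mul_eq_one_right (by rw [← map_mul, k0.1, map_one])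
        have e2 : F t * y * F (z' * v) * (F t * y)⁻¹ = F (z' * (v * w)) := by
          rw [mul_inv_rev, inv_eq_of_mul_eq_one_right V2', t2, ← k4, map_mul F z', map_mul F z', map_mul F (t * _), map_mul F t, ← e1]
          simp only [← mul_assoc]
          rw [← (fc c9).eq, mul_assoc (F t) y, ← (cy a4).eq, ← mul_assoc]
        refine (k6 (h.inj ?_)).elim
        rw [map_pow, ← e2, conj_pow, ← map_pow, k5]; simp
    · have : F (x * u * x⁻¹) = F w := by
        rw [map_mul, map_mul, map_inv, e, mul_inv_rev, h.si', show (F v * y) ^ 2 * s * F u * (s * ((F v * y) ^ 2)⁻¹) =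
          (F v * y) ^ 2 * (s * F u * s) * ((F v * y) ^ 2)⁻¹ by group, b, z3.eq, mul_inv_cancel_right]
      have := congrArg Prod.fst (h.inj this)
      simp only [u, w, Prod.fst_mul, Prod.fst_inv, mul_one, mul_inv_cancel] at this
      exact absurd this (by decide)
  intro x x'
  have m : ∀ {g : G}, Commute (F z') g → Commute (F u) g → Commute (F v) g → g ∈ centralizer {F (1, x.1)} := fun a b c =>
    mem_centralizer_singleton_iff.2 (mem_centralizer_singleton_iff.1 (gen (centralizer {_}) F (mem_centralizer_singleton_iff.2 a.eq)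
      (mem_centralizer_singleton_iff.2 b.eq) (mem_centralizer_singleton_iff.2 c.eq) x)).symm
  have := gen (centralizer {F (1, x.1)}) ((MulAut.conj s).toMonoidHom.comp F)
    (by simpa [h.si', h.sz'] using m (fc c1) (fc c3) (fc c5)) (by simpa [h.si', b] using m (fc c2) (fc c4) (fc c6))
    (by simpa [h.si', hv] using m (cy a4) (cy a2) key) x'
  simpa [h.si'] using (mem_centralizer_singleton_iff.1 this).symm

theorem hb (h : Hy F s) (b : CB F s) (k : KK F s) : ∃ φ, HB F s φ := by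
  obtain ⟨-, -, -, -, -, -, -, -, -, -, -, -, -, -, -, -, -, -, -, c8, c9, t3⟩ := q3
  obtain ⟨r1, r2, r3, r4, r5⟩ := q4
  have b : s * F u * s = F w := b
  let ι : A5 →* P35 := (MonoidHom.inr _ _).comp (alternatingGroup (Fin 5)).subtype
  let φ : A5 × A5 →* G := (F.comp ι).noncommCoprod (((MulAut.conj s).toMonoidHom.comp F).comp ι) fun x y => by
    simpa [ι, h.si', Commute, SemiconjBy] using k x y
  have val : ∀ x y, φ (x, y) = F (1, x.1) * (s * F (1, y.1) * s) := fun x y => by simp [φ, ι, h.si']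
  have o1 : F (1, (1 : A5).1) = 1 := map_one F
  have v1 : ∀ x, φ (x, 1) = F (1, x.1) := fun x => by rw [val, o1, mul_one, h.s2, mul_one]
  have v2 : ∀ x, φ (1, x) = s * F (1, x.1) * s := fun x => by rw [val, o1, one_mul]
  have inj : Function.Injective φ := (injective_iff_map_eq_one φ).2 fun ⟨x, y⟩ e => by
    rw [val] at e
    have c : ∀ a : A5, x.1 * a.1 = a.1 * x.1 := fun a => congrArg Prod.snd (h.inj (a₁ := (1, x.1) * (1, a.1)) (a₂ := (1, a.1) * (1, x.1))
      (by rw [map_mul, map_mul, eq_inv_of_mul_eq_one_left e]; exact (Commute.inv_right (k a y)).eq.symm))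
    have x1 : x = 1 := Subtype.ext ((r1 x.1 (Perm.mem_alternatingGroup.1 x.2) (c c3)).2 (c ⟨u.2, Perm.mem_alternatingGroup.2 r4⟩))
    rw [x1, o1, one_mul] at e
    have : F (1, y.1) = F 1 := by rw [← h.ss (F (1, y.1)), e, mul_one, h.s2, map_one]
    exact Prod.ext x1 (Subtype.ext (congrArg Prod.snd (h.inj this)))
  have z1 : φ (c3, 1) = F z' := v1 c3
  have z2 : φ (1, c3) = F z := (v2 c3).trans h.sz'
  have ns : ∀ g ∈ φ.range, g * F z' * g⁻¹ ≠ F z := by
    rintro _ ⟨x, rfl⟩ e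
    rw [← z1, ← z2, ← map_inv, ← map_mul, ← map_mul] at e
    exact r3 (congrArg Subtype.val (conj_eq_one_iff.1 (congrArg Prod.fst (inj e))))
  have t2 : F t * F t = 1 := by rw [← map_mul, k0.1, map_one]
  have tw1 : ∀ x : A5, F t * F (1, x.1) * F t = F (1, (tw x).1) := fun x => by
    rw [← map_mul, ← map_mul]
    exact congrArg F (Prod.ext (by simp [t]) (by simp [t, tw]))
  refine ⟨φ, inj, val, fun x y => by rw [val, val, h.sm, h.ss, k y x], fun x y => ?_, fun ⟨a, x⟩ => ?_, ?_,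
    fun m => ns s m (by rw [h.si', h.sz']), fun m => ns _ m ?_⟩
  · rw [val, val, ← tw1, ← tw1]
    calc _ = F t * F (1, x.1) * (F t * F t) * s * F (1, y.1) * (s * F t) := by rw [t2]; group
      _ = F t * F (1, x.1) * F t * (F t * s) * F (1, y.1) * (F t * s) := by rw [h.st]; group
      _ = _ := by nth_rw 1 [← h.st]; group
  · obtain ⟨i, -, j, -, e⟩ := r2 a
    have m : F (a, 1) ∈ φ.range := by
      rw [e, map_mul, map_pow, map_pow]
      exact mul_mem (pow_mem (MonoidHom.mem_range.2 ⟨_, z2⟩) _)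
        (pow_mem (MonoidHom.mem_range.2 ⟨_, (v2 ⟨u.2, Perm.mem_alternatingGroup.2 r4⟩).trans b⟩) _)
    refine (r5 x).imp (fun e => ?_) fun e => ?_
    · rw [show ((a, x) : P35) = (a, 1) * (1, x) by simp, map_mul]
      exact mul_mem m ⟨_, v1 ⟨x, Perm.mem_alternatingGroup.2 e⟩⟩
    · rw [← map_mul, show ((a, x) : P35) * t = (a, 1) * (1, x * swap 3 4) by simp [t], map_mul]
      exact mul_mem m ⟨_, v1 ⟨_, Perm.mem_alternatingGroup.2 e⟩⟩
  · rintro ⟨⟨x, y⟩, e⟩
    have a1 : (x, y) * (c3, 1) = (c3, 1) * (x, y) := inj (by rw [map_mul, map_mul, e, z1, (fc c9).eq])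
    have a2 : (x, y) * (1, c3) = (1, c3) * (x, y) := inj (by rw [map_mul, map_mul, e, z2, (fc c8).eq])
    have : (x, y) ^ 3 = 1 := Prod.ext (Subtype.ext (r1 x.1 (Perm.mem_alternatingGroup.1 x.2) (congrArg (·.1.1) a1)).1)
      (Subtype.ext (r1 y.1 (Perm.mem_alternatingGroup.1 y.2) (congrArg (·.2.1) a2)).1)
    exact t3 (h.inj (by rw [map_pow, ← e, ← map_pow, this, map_one, map_one]))
  · rw [h.tw.si', h.tw.sz']

end H15.Dm
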