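import Cfsg.Agent.H15.RSd
import Cfsg.Agent.H15.Vx
import Cfsg.Agent.H27.CovRu

/-! Kernel checks on a Sylow subgroup of the double cover of the Rudvalis group (namespace H15.RS). -/

set_option maxRecDepth 100000
set_option Elab.async false

namespace H15.RS
open H13 H14.PK H14.RK H27 H27.CovRu

/-- the sublist with the given bits -/
noncomputable def wdR {α : Type} (L : List α) : ℕ → List α :=
  List.rec (fun _ => []) (fun a _ ih e => force (Nat.div e 2) fun d => Bool.rec (a :: ih d) (ih d) (Nat.beq (Nat.mod e 2) 0)) L

/-- image of a small point -/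
noncomputable def apL (u : List ℕ) (b : ℕ) : ℕ := List.rec b (fun t _ ih => force ih fun x => get 16 t x) u

/-- test of one element -/
noncomputable def leaf (e : ℕ) : Bool :=
  band (anyL (fun b => bn (Nat.beq (get 16 P (apL (wdR rl e) (apL (wdR rl e) (apL (wdR rl e) (apL (wdR rl e) b))))) (get 16 P (get 16 r11 b)))) b2)
    (bor (anyL (fun b => bn (Nat.beq (get 16 P (apL (wdR rl e) (apL (wdR rl e) b))) (get 16 P b))) b2)
      (bor (Nat.beq e 0) (bor (Nat.beq e 2048) (anyL (Nat.beq e) ei))))

/-- the letters of the Sylow subgroup -/
def lt : List ℕ := [28, 29, 30, 31, 32, 33, 34, 35, 36, 37, 38, 39, 40, 41, 42]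

/-- test of a conjugation -/
noncomputable def entOk (c : ℕ) : Bool := force (Nat.shiftRight c 16) fun g =>
  fB 16 16240 Ru.bs tbs (H15.apd (unp 6 g) (wdR lt (Nat.mod c 32768)))
    (H15.apd (Bool.rec [42] [42, 39] (Nat.beq (Nat.mod (Nat.shiftRight c 15) 2) 1)) (unp 6 g))

/-- the small tables agree with the large ones -/
noncomputable def cmOk (i : ℕ) : Bool := force (nd (idv 16 16240) tbs (Nat.add 28 i)) fun t => force (nd 0 rl i) fun r =>
  allLt (fun j => band (Nat.blt (get 16 r j) 80) (Nat.beq (get 16 t (get 16 P j)) (get 16 P (get 16 r j)))) 80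

theorem c_cm : allLt cmOk 15 = true := by decide +kernel
theorem c_P : allLt (fun j => Nat.blt (get 16 P j) 16240) 80 = true := by decide +kernel
theorem c_rel : allL (fun e => fB 16 16240 Ru.bs tbs e.1 e.2) rels = true := by decide +kernel
theorem c_ei : ei = ens.flatten.map (· % 32768) := by decide +kernel
theorem c_ne : band (Nat.blt 0 16240) (bn (Nat.beq (apT 16 16240 tbs [42] 0) 0)) = true := by decide +kernel
theorem c_pc : allLt (fun j => allLt (fun i => allL (fun l => band (Nat.blt i l) (Nat.blt l 15)) (rule d2rl j i)) (Nat.succ j)) 15 = true := by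
  decide +kernel
theorem e0 : allL entOk en0 = true := by decide +kernel
theorem e1 : allL entOk en1 = true := by decide +kernel
theorem e2 : allL entOk en2 = true := by decide +kernel
theorem e3 : allL entOk en3 = true := by decide +kernel
theorem e4 : allL entOk en4 = true := by decide +kernel
theorem e5 : allL entOk en5 = true := by decide +kernel
theorem e6 : allL entOk en6 = true := by decide +kernel
theorem e7 : allL entOk en7 = true := by decide +kernel
theorem e8 : allL entOk en8 = true := by decide +kernel
theorem e9 : allL entOk en9 = true := by decide +kernel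
theorem e10 : allL entOk en10 = true := by decide +kernel
theorem e11 : allL entOk en11 = true := by decide +kernel
theorem e12 : allL entOk en12 = true := by decide +kernel
theorem e13 : allL entOk en13 = true := by decide +kernel
theorem e14 : allL entOk en14 = true := by decide +kernel

end H15.RS
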