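import Cfsg.Agent.H15.RSa

/-! Enumeration of a Sylow subgroup. -/

set_option maxRecDepth 100000
set_option Elab.async false

namespace H15.RS

theorem l0 : rng leaf 0 1024 = true := by decide +kernel
theorem l1 : rng leaf 1024 1024 = true := by decide +kernel
theorem l2 : rng leaf 2048 1024 = true := by decide +kernel
theorem l3 : rng leaf 3072 1024 = true := by decide +kernel
theorem l4 : rng leaf 4096 1024 = true := by decide +kernel
theorem l5 : rng leaf 5120 1024 = true := by decide +kernel
theorem l6 : rng leaf 6144 1024 = true := by decide +kernel
theorem l7 : rng leaf 7168 1024 = true := by decide +kernel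
theorem l8 : rng leaf 8192 1024 = true := by decide +kernel
theorem l9 : rng leaf 9216 1024 = true := by decide +kernel
theorem l10 : rng leaf 10240 1024 = true := by decide +kernel
theorem l11 : rng leaf 11264 1024 = true := by decide +kernel
theorem l12 : rng leaf 12288 1024 = true := by decide +kernel
theorem l13 : rng leaf 13312 1024 = true := by decide +kernel
theorem l14 : rng leaf 14336 1024 = true := by decide +kernel
theorem l15 : rng leaf 15360 1024 = true := by decide +kernel

end H15.RS
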