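import Cfsg.Agent.H15.RSa

/-! Enumeration of a Sylow subgroup. -/

set_option maxRecDepth 100000
set_option Elab.async false

namespace H15.RS

theorem l16 : rng leaf 16384 1024 = true := by decide +kernel
theorem l17 : rng leaf 17408 1024 = true := by decide +kernel
theorem l18 : rng leaf 18432 1024 = true := by decide +kernel
theorem l19 : rng leaf 19456 1024 = true := by decide +kernel
theorem l20 : rng leaf 20480 1024 = true := by decide +kernel
theorem l21 : rng leaf 21504 1024 = true := by decide +kernel
theorem l22 : rng leaf 22528 1024 = true := by decide +kernel
theorem l23 : rng leaf 23552 1024 = true := by decide +kernel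
theorem l24 : rng leaf 24576 1024 = true := by decide +kernel
theorem l25 : rng leaf 25600 1024 = true := by decide +kernel
theorem l26 : rng leaf 26624 1024 = true := by decide +kernel
theorem l27 : rng leaf 27648 1024 = true := by decide +kernel
theorem l28 : rng leaf 28672 1024 = true := by decide +kernel
theorem l29 : rng leaf 29696 1024 = true := by decide +kernel
theorem l30 : rng leaf 30720 1024 = true := by decide +kernel
theorem l31 : rng leaf 31744 1024 = true := by decide +kernel

end H15.RS
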