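import Mathlib
import Cfsg.Agent.S0215
import Cfsg.Agent.S3974
import Cfsg.Prelude.Def_Local

/-! The central involution of a standard double cover with cyclic centraliser is isolated (namespace H15.RS): `Dat`, `St`, `iso`, `norm`. -/

namespace H15.RS
open Cfsg Subgroup
open scoped commutatorElement

variable {E G : Type*} [Group E] [Group G]

/-- facts on the involutions of the cover -/
structure Dat (ζ a : E) : Prop where
  cen : ∀ x, x ∈ center E ↔ x = 1 ∨ x = ζ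
  ne : ζ ≠ 1
  z2 : ζ * ζ = 1
  four : ∀ b, b ^ 4 ≠ ζ
  cls : ∀ x, x * x = 1 → x = 1 ∨ x = ζ ∨ IsConj x a ∨ IsConj x (a * ζ)
  y : ∃ y ∈ ⁅centralizer ({a} : Set E), centralizer ({a} : Set E)⁆, y ^ 4 = a
  w : ∃ w ∈ ⁅centralizer ({a} : Set E), centralizer ({a} : Set E)⁆, IsConj w a ∧ IsConj (w * (a * ζ)) a
  a1 : a ≠ 1
  a2 : a * a = 1

/-- the local data -/
structure St (ζ : E) (φ : E →* G) (K O : Subgroup G) : Prop where
  inj : Function.Injective φ
  mem : ∀ k, k ∈ K ↔ ∀ a, φ a * k = k * φ a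
  dec : ∀ g, g * φ ζ = φ ζ * g → ∃ a, ∃ k ∈ K, g = φ a * k
  le : O ≤ K
  com : ∀ k ∈ K, ∀ l ∈ K, ⁅k, l⁆ ∈ O
  odd : ∀ k ∈ O, k ^ 8 = 1 → k = 1
  uniq : ∀ k ∈ K, k * k = 1 → k = 1 ∨ k = φ ζ

variable {ζ a : E} {φ : E →* G} {K O : Subgroup G}

theorem Dat.c (D : Dat ζ a) (x : E) : x * ζ = ζ * x := mem_center_iff.1 ((D.cen ζ).2 (.inr rfl)) x

theorem Dat.sq (D : Dat ζ a) (x : E) : x * ζ * (x * ζ) = x * x := by
  rw [mul_assoc, ← mul_assoc ζ, ← D.c, mul_assoc x, D.z2, mul_one]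

theorem tf {z t : G} (h : IsConj z t) : ∃ θ : G ≃* G, θ t = z ∧ ∀ x, IsConj x (θ x) :=
  let ⟨g, e⟩ := isConj_iff.1 h.symm; ⟨MulAut.conj g, e, fun _ => isConj_iff.2 ⟨g, rfl⟩⟩

variable (S : St ζ φ K O)
include S

theorem St.c {k : G} (h : k ∈ K) (a : E) : Commute (φ a) k := (S.mem k).1 h a

theorem St.mul {k : G} (h : k ∈ K) (a b : E) (l : G) : φ a * k * (φ b * l) = φ (a * b) * (k * l) := by
  rw [map_mul, mul_assoc, ← mul_assoc k, ← (S.c h b).eq]; group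

variable (D : Dat ζ a)
include D

theorem St.pm {x : E} (h : φ x ∈ K) : x = 1 ∨ x = ζ :=
  (D.cen x).1 (mem_center_iff.2 fun b => S.inj (by rw [map_mul, map_mul]; exact S.c h b))

theorem St.W {θ : G ≃* G} (h : ∀ u ∈ centralizer ({a} : Set E), θ (φ u) * φ ζ = φ ζ * θ (φ u)) {y c : E}
    (hy : y ∈ ⁅centralizer ({a} : Set E), centralizer ({a} : Set E)⁆) (e : θ (φ y) ^ 4 = φ c) : ∃ α, θ (φ y) = φ α := by
  let W : Subgroup G :=
    { carrier := {g | ∃ α, ∃ κ ∈ O, g = φ α * κ}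
      one_mem' := ⟨1, 1, one_mem _, by simp⟩
      mul_mem' := by
        rintro _ _ ⟨α, κ, h1, rfl⟩ ⟨β, l, h2, rfl⟩
        exact ⟨_, _, mul_mem h1 h2, S.mul (S.le h1) _ _ _⟩
      inv_mem' := by
        rintro _ ⟨α, κ, h1, rfl⟩
        exact ⟨α⁻¹, _, inv_mem h1, by rw [mul_inv_rev, (S.c (S.le (inv_mem h1)) _).eq, map_inv]⟩ }
  obtain ⟨α, κ, h1, h2⟩ : y ∈ W.comap (θ.toMonoidHom.comp φ) := (commutator_le.2 fun u hu v hv => by
    obtain ⟨α, k, hk, e1⟩ := S.dec _ (h u hu)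
    obtain ⟨β, l, hl, e2⟩ := S.dec _ (h v hv)
    refine ⟨⁅α, β⁆, _, S.com k hk l hl, ?_⟩
    show θ (φ ⁅u, v⁆) = _
    rw [map_commutatorElement, map_commutatorElement, e1, e2, commutatorElement_def, mul_assoc, ← mul_inv_rev, S.mul hk, S.mul hl,
      mul_inv_rev, ← map_inv, ← (S.c (inv_mem (mul_mem hl hk)) _).eq, S.mul (mul_mem hk hl)]
    simp only [commutatorElement_def, mul_inv_rev, mul_assoc]) hy
  have h2 : θ (φ y) = φ α * κ := h2
  rw [h2, (S.c (S.le h1) α).mul_pow, ← map_pow, ← eq_inv_mul_iff_mul_eq, ← map_inv, ← map_mul] at e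
  refine ⟨α, h2.trans (mul_eq_left.2 (S.odd κ h1 ?_))⟩
  rw [show 8 = 4 * 2 from rfl, pow_mul, e, ← map_pow]
  rcases S.pm D (e ▸ S.le (pow_mem h1 4)) with r | r <;> simp [r, pow_two, D.z2, -map_mul]

theorem St.n1 : ¬ IsConj (φ ζ) (φ a) := fun h => by
  obtain ⟨θ, ht, -⟩ := tf h
  obtain ⟨y, hy, e⟩ := D.y
  have e' : θ (φ y) ^ 4 = φ ζ := by rw [← map_pow, ← map_pow, e, ht]
  obtain ⟨α, hα⟩ := S.W D (θ := θ) (fun u hu => by
    rw [← ht, ← map_mul, ← map_mul, ← map_mul, ← map_mul, mem_centralizer_singleton_iff.1 hu]) hy e'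
  exact D.four α (S.inj (by rw [map_pow, ← hα, e']))

theorem St.n2 : ¬ IsConj (φ ζ) (φ (a * ζ)) := fun h => by
  obtain ⟨θ, ht, hc⟩ := tf h
  obtain ⟨w, hw, e1, e2⟩ := D.w
  have w2 : w * w = 1 := by
    have := e1.pow 2
    rwa [pow_two a, D.a2, isConj_one_left, pow_two] at this
  obtain ⟨α, hα⟩ := S.W D (θ := θ) (c := 1) (fun u hu => by
    rw [← ht, ← map_mul, ← map_mul, ← map_mul, ← map_mul, ← mul_assoc, mem_centralizer_singleton_iff.1 hu, mul_assoc, D.c u,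
      mul_assoc]) hw (by rw [← map_pow, ← map_pow, show 4 = 2 * 2 from rfl, pow_mul, pow_two w, w2]; simp)
  have h1 : θ (φ (w * (a * ζ))) = φ (α * ζ) := by rw [map_mul, map_mul θ, hα, ht, map_mul]
  rcases D.cls α (S.inj (by rw [map_mul, ← hα, ← map_mul, ← map_mul, w2]; simp)) with rfl | rfl | r | r
  · rw [map_one, EmbeddingLike.map_eq_one_iff, ← map_one φ] at hα
    exact D.a1 (isConj_one_right.1 (S.inj hα ▸ e1))
  · rw [D.z2, map_one, EmbeddingLike.map_eq_one_iff, ← map_one φ] at h1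
    exact D.a1 (isConj_one_right.1 (S.inj h1 ▸ e2))
  · obtain ⟨g, e⟩ := isConj_iff.1 r
    have : IsConj (α * ζ) (a * ζ) := isConj_iff.2 ⟨g, by rw [← e, mul_assoc _ g⁻¹, D.c g⁻¹]; group⟩
    exact S.n1 D (h.trans ((φ.map_isConj this).symm.trans ((h1 ▸ hc _).symm.trans (φ.map_isConj e2))))
  · exact S.n1 D (h.trans ((φ.map_isConj r).symm.trans ((hα ▸ hc _).symm.trans (φ.map_isConj e1))))

theorem St.inv2 {t : G} (h : t * φ ζ = φ ζ * t) (h2 : t * t = 1) :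
    (∃ a, a * a = 1 ∧ t = φ a) ∨ ∃ a, ∃ k ∈ K, a * a = ζ ∧ k * k = φ ζ ∧ t = φ a * k := by
  obtain ⟨a, k, hk, rfl⟩ := S.dec t h
  rw [S.mul hk] at h2
  rcases S.pm D (eq_inv_of_mul_eq_one_left h2 ▸ inv_mem (mul_mem hk hk)) with r | r
  · rw [r, map_one, one_mul] at h2
    rcases S.uniq k hk h2 with rfl | rfl
    · exact .inl ⟨a, r, mul_one _⟩
    · exact .inl ⟨_, (D.sq a).trans r, (map_mul _ _ _).symm⟩
  · refine .inr ⟨a, k, hk, r, ?_, rfl⟩
    rw [eq_inv_of_mul_eq_one_right h2, r, ← map_inv, inv_eq_of_mul_eq_one_right D.z2]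

theorem St.two {x : E} {k : G} (hk : k ∈ K) (ha : x * x = ζ) (h2 : k * k = φ ζ) : ¬ IsConj (φ ζ) (φ x * k) := by
  intro h
  obtain ⟨θ, ht, -⟩ := tf h
  obtain ⟨r, hr, r2, rc⟩ : ∃ r ∈ K, r * r = φ ζ ∧ Commute (θ (φ ζ)) r := by
    obtain ⟨a, -, e⟩ | ⟨a, l, hl, -, l2, e⟩ := S.inv2 D (t := θ (φ ζ)) (by
      conv_lhs => enter [2]; rw [← ht]
      conv_rhs => enter [1]; rw [← ht]
      rw [← map_mul, ← map_mul, mul_assoc, ← (S.c hk ζ).eq, ← mul_assoc, ← mul_assoc, ← map_mul, ← map_mul, D.c])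
      (by rw [← map_mul, ← map_mul, D.z2, map_one, map_one])
    · exact ⟨k, hk, h2, e ▸ S.c hk a⟩
    · exact ⟨l, hl, l2, e ▸ (S.c hl a).mul_left (.refl l)⟩
  obtain ⟨b, l, hl, hb⟩ := S.dec (θ.symm r) (θ.injective (by simpa using rc.eq.symm))
  have b2 : φ (b * b) * (l * l) = φ x * k := θ.injective (by
    rw [← S.mul hl, ← hb, ht, map_mul, θ.apply_symm_apply, r2])
  refine D.four b ?_
  have : φ (x⁻¹ * (b * b)) = k * (l * l)⁻¹ := by
    rw [map_mul, map_inv, inv_mul_eq_iff_eq_mul, ← mul_assoc, ← b2, mul_inv_cancel_right]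
  rw [show b ^ 4 = b * b * (b * b) by simp [pow_succ, mul_assoc]]
  rcases S.pm D (this ▸ mul_mem hk (inv_mem (mul_mem hl hl))) with q | q <;> rw [inv_mul_eq_iff_eq_mul.1 q]
  · rw [mul_one, ha]
  · rw [D.sq, ha]

theorem St.iso {t : G} (h : IsConj (φ ζ) t) (c : t * φ ζ = φ ζ * t) : t = φ ζ := by
  have t2 : t * t = 1 := by
    have := h.pow 2
    rwa [← map_pow, pow_two, D.z2, map_one, isConj_one_right, pow_two] at this
  obtain ⟨x, a2, rfl⟩ | ⟨x, k, hk, a2, k2, rfl⟩ := S.inv2 D c t2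
  · rcases D.cls x a2 with rfl | rfl | t | t
    · rw [map_one, isConj_one_left, ← map_one φ] at h
      exact (D.ne (S.inj h)).elim
    · rfl
    · exact (S.n1 D (h.trans (φ.map_isConj t))).elim
    · exact (S.n2 D (h.trans (φ.map_isConj t))).elim
  · exact (S.two D hk a2 k2 h).elim

omit S in
theorem norm [Finite G] (hO : oddCore G = ⊥) (A : Subgroup G) (hA : IsStandardSubgroup A) (e : A ≃* E)
    (inner : ∀ β : E ≃* E, ∃ c, ∀ x, β x = c * x * c⁻¹)
    (hR : ∀ R : Sylow 2 (centralizer (A : Set G)), IsCyclic (R : Subgroup (centralizer (A : Set G)))) : A.Normal := by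
  let φ : E →* G := A.subtype.comp e.symm.toMonoidHom
  have inj : Function.Injective φ := A.subtype_injective.comp e.symm.injective
  have mem : ∀ k, k ∈ centralizer (A : Set G) ↔ ∀ a, φ a * k = k * φ a := fun k =>
    ⟨fun h a => h _ (e.symm a).2, fun h a ha => by simpa [φ] using h (e ⟨a, ha⟩)⟩
  have zK : φ ζ ∈ centralizer (A : Set G) := (mem _).2 fun a => by rw [← map_mul, D.c, map_mul]
  have z2 : orderOf (φ ζ) = 2 := orderOf_eq_prime (by rw [← map_pow, pow_two, D.z2, map_one])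
    fun h => D.ne (inj (h.trans (map_one φ).symm))
  have nA : ∀ g, g * φ ζ = φ ζ * g → g ∈ normalizer (A : Set G) := fun g hg => by
    rw [hA.2.2.2]
    by_contra h
    have := Odd.of_dvd_nat (hA.2.1.2 g h) (Subgroup.orderOf_dvd_natCard _ (x := φ ζ) ⟨zK, _, zK, mul_inv_eq_iff_eq_mul.2 hg⟩)
    exact absurd (z2 ▸ this) (by decide)
  have dec : ∀ g, g ∈ normalizer (A : Set G) → ∃ a, ∃ k ∈ centralizer (A : Set G), g = φ a * k := fun g hg => by
    obtain ⟨a, ha⟩ := inner (e.symm.trans ((A.normalizerMonoidHom ⟨g, hg⟩).trans e))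
    refine ⟨a, (φ a)⁻¹ * g, (mem _).2 fun x => ?_, by simp⟩
    have : g * φ x * g⁻¹ = φ a * φ x * (φ a)⁻¹ := by
      rw [← map_inv, ← map_mul, ← map_mul, ← ha]; simp [φ]
    calc _ = (φ a)⁻¹ * (φ a * φ x * (φ a)⁻¹) * g := by group
      _ = _ := by rw [← this]; group
  obtain ⟨R⟩ : Nonempty (Sylow 2 (centralizer (A : Set G))) := inferInstance
  have hP := (hR R).normalizer_le_centralizer ((Nat.minFac_eq_two_iff _).2 hA.2.1.1.two_dvd)
  have S : St ζ φ (centralizer (A : Set G)) ((MonoidHom.transferSylow R hP).ker.map (Subgroup.subtype _)) :=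
    ⟨inj, mem, fun g h => dec g (nA g h), map_subtype_le _, fun k hk l hl => ⟨⁅(⟨k, hk⟩ : centralizer (A : Set G)), ⟨l, hl⟩⁆, ?_, rfl⟩, ?_, fun k hk h => ?_⟩
  · exact normalizer_eq_top_iff.1 (eq_top_iff.2 fun g _ => nA g (by
      have := mem_bot.1 (hO ▸ Cfsg.Agent.S0215.zstar ⟨z2, fun g h => S.iso D (isConj_iff.2 ⟨g, rfl⟩) h.eq.symm⟩ g)
      calc _ = (φ ζ * g * (φ ζ)⁻¹ * g⁻¹) * (g * φ ζ) := by rw [this, one_mul]
        _ = _ := by group))
  · rw [SetLike.mem_coe, MonoidHom.mem_ker, map_commutatorElement, commutatorElement_eq_one_iff_mul_comm]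
    exact Subtype.ext (hP (le_normalizer (SetLike.coe_mem _)) _ (SetLike.coe_mem _)).symm
  · rintro _ ⟨c, h1, rfl⟩ h
    have h2 : orderOf c ∣ 2 ^ 3 := orderOf_dvd_of_pow_eq_one (Subtype.ext h)
    exact congrArg Subtype.val (orderOf_eq_one_iff.1 (Nat.eq_one_of_dvd_coprimes (((Nat.Prime.coprime_iff_not_dvd Nat.prime_two).2
      (MonoidHom.not_dvd_card_ker_transferSylow R hP)).pow_left 3) h2 (orderOf_dvd_natCard _ h1)))
  · classical
    by_contra! n
    let κ : centralizer (A : Set G) := ⟨k, hk⟩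
    let ζ' : centralizer (A : Set G) := ⟨_, zK⟩
    have k2 : κ ^ 2 = 1 := Subtype.ext ((pow_two k).trans h)
    have ζ2 : ζ' ^ 2 = 1 := Subtype.ext (z2 ▸ pow_orderOf_eq_one _)
    have pg : ∀ a : centralizer (A : Set G), a ^ 2 = 1 → IsPGroup 2 (zpowers a) := fun a h => by
      rintro ⟨_, i, rfl⟩
      exact ⟨1, Subtype.ext (show (a ^ i) ^ 2 ^ 1 = 1 by rw [pow_one, ← zpow_natCast, ← zpow_mul, mul_comm, zpow_mul, zpow_natCast, h, one_zpow])⟩
    obtain ⟨T, hT⟩ := (pg κ k2).exists_le_sylow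
    have : (zpowers ζ').Normal := ⟨fun a ha g => by
      have : a ∈ center _ := zpowers_le.2 (mem_center_iff.2 fun g => Subtype.ext (g.2 _ (e.symm _).2).symm) ha
      rwa [mem_center_iff.1 this g, mul_inv_cancel_right]⟩
    have := Fintype.ofFinite T
    have := hR T
    have c := (Finset.card_le_card (s := {1, ⟨κ, hT (mem_zpowers _)⟩, ⟨ζ', (pg ζ' ζ2).le_sylow_of_normal T (mem_zpowers _)⟩})
      (fun a ha => Finset.mem_filter.2 ⟨Finset.mem_univ _, by
        rcases Finset.mem_insert.1 ha with rfl | ha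
        · exact one_pow 2
        rcases Finset.mem_insert.1 ha with rfl | ha
        · exact Subtype.ext k2
        · rw [Finset.mem_singleton.1 ha]; exact Subtype.ext ζ2⟩)).trans (IsCyclic.card_pow_eq_one_le (α := T) two_pos)
    have z1 : φ ζ ≠ 1 := fun r => by simp [r] at z2
    rw [Finset.card_eq_three.2 ⟨_, _, _, fun r => n.1 (congrArg (·.1.1) r).symm, fun r => z1 (congrArg (·.1.1) r).symm,
      fun r => n.2 (congrArg (·.1.1) r), rfl⟩] at c
    omega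

omit D S in
theorem inner_of {Q : Type*} [Group Q] {σ : E →* Q} (hs : Function.Surjective σ) (hk : σ.ker = center E) (hp : commutator E = ⊤)
    (h : ∀ γ : Q ≃* Q, ∃ c, ∀ x, γ x = c * x * c⁻¹) (β : E ≃* E) : ∃ c, ∀ x, β x = c * x * c⁻¹ := by
  let e : E ⧸ center E ≃* Q := (QuotientGroup.quotientMulEquivOfEq hk.symm).trans (QuotientGroup.quotientKerEquivOfSurjective σ hs)
  obtain ⟨r, hr⟩ := h (e.symm.trans ((QuotientGroup.congr _ _ β (characteristic_iff_map_eq.1 inferInstance β)).trans e))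
  obtain ⟨c, rfl⟩ := hs r
  have h1 (x) : (c * x * c⁻¹)⁻¹ * β x ∈ center E := by
    have := hr (e x)
    rw [MulEquiv.trans_apply, e.symm_apply_apply] at this
    rw [← hk, MonoidHom.mem_ker, map_mul, map_inv, inv_mul_eq_one, map_mul, map_mul, map_inv]
    exact this.symm
  refine ⟨c, fun x => ?_⟩
  have : commutator E ≤ β.toMonoidHom.eqLocus (MulAut.conj c).toMonoidHom := commutator_le.2 fun u _ v _ => by
    show β ⁅u, v⁆ = MulAut.conj c ⁅u, v⁆
    obtain ⟨p, a, e1⟩ : ∃ p ∈ center E, β u = c * u * c⁻¹ * p := ⟨_, h1 u, (mul_inv_cancel_left _ _).symm⟩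
    obtain ⟨q, b, e2⟩ : ∃ p ∈ center E, β v = c * v * c⁻¹ * p := ⟨_, h1 v, (mul_inv_cancel_left _ _).symm⟩
    rw [map_commutatorElement, map_commutatorElement, MulAut.conj_apply, MulAut.conj_apply, e1, e2]
    replace a := mem_center_iff.1 a
    replace b := mem_center_iff.1 b
    generalize c * u * c⁻¹ = u'
    generalize c * v * c⁻¹ = v'
    simp only [commutatorElement_def, mul_inv_rev]
    calc _ = u' * (p * (v' * q)) * p⁻¹ * (u'⁻¹ * q⁻¹) * v'⁻¹ := by group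
      _ = u' * v' * (q * u'⁻¹) * q⁻¹ * v'⁻¹ := by rw [← a]; group
      _ = _ := by rw [← b]; group
  exact this (hp.ge trivial)

end H15.RS
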