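import Cfsg.Agent.L.Js0
import Cfsg.Agent.S3035
import Cfsg.Agent.H08.Dih
import Cfsg.Agent.H15.S7Xa

/-! A recognition of the symmetric group of degree five (namespace H15.S7X): `d8`, `x`. -/

set_option autoImplicit false

namespace H15.S7X
open Subgroup Cfsg BG

universe u

theorem d8 {X : Type u} [Group X] [Finite X] {P U : Subgroup X} (c : Nat.card P = 8) (l : U ≤ P) (cU : Nat.card U = 4)
    (e : ∀ w ∈ U, w * w = 1) (na : ¬ ∀ a ∈ P, ∀ b ∈ P, a * b = b * a) : Nonempty (P ≃* DihedralGroup 4) := by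
  classical
  have : Fact (Nat.Prime 2) := ⟨Nat.prime_two⟩
  obtain ⟨r, rP, r2⟩ : ∃ r ∈ P, r * r ≠ 1 := by
    by_contra! h
    exact na fun a i b j => H20.FtW.EA.comm h i j
  have o : orderOf r = 4 := by
    obtain ⟨k, k3, o⟩ := (Nat.dvd_prime_pow Nat.prime_two (m := 3)).1 (show orderOf r ∣ 8 from c ▸ orderOf_dvd_natCard _ rP)
    interval_cases k
    · exact absurd (by rw [orderOf_eq_one_iff.1 o, one_mul]) r2
    · exact absurd (by rw [← pow_two, ← show orderOf r = 2 from o, pow_orderOf_eq_one]) r2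
    · exact o
    · have : zpowers r = P := eq_of_le_of_card_ge (zpowers_le.2 rP) (by rw [c, Nat.card_zpowers, o]; norm_num)
      refine absurd ?_ na
      rw [← this]
      rintro _ ⟨m, rfl⟩ _ ⟨n, rfl⟩
      exact (Commute.zpow_zpow_self r m n).eq
  obtain ⟨s, sU, sn⟩ : ∃ s ∈ U, s ∉ zpowers r := by
    by_contra! h
    have : U = zpowers r := eq_of_le_of_card_ge h (by rw [cU, Nat.card_zpowers, o])
    exact r2 (e r (this.ge (mem_zpowers r)))
  have i2 : ((zpowers r).subgroupOf P).index = 2 := by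
    have := ((zpowers r).subgroupOf P).card_mul_index
    rw [Nat.card_congr (subgroupOfEquivOfLe (zpowers_le.2 rP)).toEquiv, Nat.card_zpowers, o, c] at this; omega
  have m : s * r * s⁻¹ ∈ zpowers r := (normal_of_index_eq_two i2).conj_mem ⟨r, rP⟩ (mem_zpowers r) ⟨s, l sU⟩
  have r4 : r ^ 4 = 1 := o ▸ pow_orderOf_eq_one r
  have rel : s * r * s⁻¹ = r⁻¹ := by
    rw [mem_zpowers_iff_mem_range_orderOf, o] at m
    simp only [Finset.mem_image, Finset.mem_range] at m
    obtain ⟨k, k4, h⟩ := m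
    have q : s * r * s⁻¹ * (s * r * s⁻¹) ≠ 1 := fun i => r2 (by rwa [conj_mul, conj_eq_one_iff] at i)
    interval_cases k
    · exact absurd (by rw [← h]; simp) q
    · refine absurd (fun a i b j => ?_) na
      have cs : Commute s r := mul_inv_eq_iff_eq_mul.1 (h.symm.trans (pow_one r))
      have k : ∀ a ∈ P, ∃ n : ℤ, a = r ^ n ∨ a = r ^ n * s := fun a i => by
        by_cases h : a ∈ zpowers r
        · obtain ⟨n, h⟩ := h; exact ⟨n, .inl h.symm⟩
        · obtain ⟨n, h⟩ : a * s⁻¹ ∈ zpowers r :=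
            (mul_mem_iff_of_index_two i2 (a := ⟨a, i⟩) (b := ⟨s, l sU⟩⁻¹)).2 (iff_of_false h fun i => sn (inv_mem_iff.1 i))
          exact ⟨n, .inr (by rw [show r ^ n = _ from h, inv_mul_cancel_right])⟩
      obtain ⟨m, h1⟩ := k a i
      obtain ⟨n, h2⟩ := k b j
      have c1 := Commute.zpow_zpow_self r m n
      have c2 := cs.zpow_right n
      have c3 := (cs.zpow_right m).symm
      rcases h1 with rfl | rfl <;> rcases h2 with rfl | rfl
      exacts [c1.eq, (c1.mul_right c3).eq, (c1.mul_left c2).eq, ((c1.mul_right c3).mul_left (c2.mul_right (.refl s))).eq]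
    · exact absurd (by rw [← h, ← pow_add, r4]) q
    · rw [← h, eq_inv_iff_mul_eq_one, ← pow_succ, r4]
  have D := H08.dih_closure (m := 1) o (e s sU) rel sn
  have : closure {r, s} = P := eq_of_le_of_card_ge ((closure_le _).2 (by rintro _ (rfl | rfl); exacts [rP, l sU])) (by rw [c, D.card]; norm_num)
  exact this ▸ D.nonempty_equiv

theorem x : L.Js.XStmt.{u} := by
  intro X _ _ U z h cU hU oz z3
  have : Fact (Nat.Prime 2) := ⟨Nat.prime_two⟩
  have e : ∀ w ∈ U, w * w = 1 := fun w i => by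
    by_cases n : w = 1
    · simp [n]
    · rw [← pow_two, ← (hU w i n).1, pow_orderOf_eq_one]
  obtain ⟨P, l⟩ := (IsPGroup.of_card (p := 2) (n := 2) cU).exists_le_sylow
  obtain ⟨R, l'⟩ := (IsPGroup.of_card (p := 2) (n := 1) ((Nat.card_zpowers z).trans oz)).exists_le_sylow
  obtain ⟨g, rfl⟩ := MulAction.exists_smul_eq X P R
  have zP : g⁻¹ * z * g ∈ (P : Subgroup X) := by
    have := l' (mem_zpowers z)
    rw [Sylow.coe_subgroup_smul, mem_pointwise_smul_iff_inv_smul_mem] at this; simpa using this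
  have cz : Nat.card C_[g⁻¹ * z * g] = Nat.card C_[z] := by
    rw [← card_cj g⁻¹ C_[z]]; congr 2; ext y
    rw [mem_cj_inv, mem_cent1, mem_cent1]
    exact ⟨fun i => by rw [show g * y * g⁻¹ * z = g * (y * (g⁻¹ * z * g)) * g⁻¹ by group, i]; group,
      fun i => by rw [show y * (g⁻¹ * z * g) = g⁻¹ * (g * y * g⁻¹ * z) * g by group, i]; group⟩
  have oz' : orderOf (g⁻¹ * z * g) = 2 := by rw [← oz]; simpa using (MulAut.conj g⁻¹).orderOf_eq z
  have zU : g⁻¹ * z * g ∉ U := fun i => by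
    have := z3.trans (cz ▸ (hU _ i fun n => by simp [n] at oz').2); omega
  have c12 : Nat.card C_[g⁻¹ * z * g] ∣ 12 := ((h _ oz').resolve_left fun i => by have := z3.trans (cz ▸ i); omega).2
  obtain ⟨n, cP⟩ := P.2.exists_card_eq
  have lt : Nat.card U < Nat.card P := by
    refine lt_of_le_of_ne (card_le_of_le l) fun i => zU ((eq_of_le_of_card_ge l i.ge).ge zP)
  have n3 : 8 ∣ Nat.card P := by
    rw [cU, cP, show 4 = 2 ^ 2 from rfl, Nat.pow_lt_pow_iff_right (by norm_num)] at lt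
    exact cP ▸ pow_dvd_pow 2 lt
  have : Nontrivial P := Finite.one_lt_card_iff_nontrivial.1 (by omega)
  have := P.2.center_nontrivial
  obtain ⟨k, ck⟩ := (P.2.to_subgroup (center P)).exists_card_eq
  obtain ⟨t, ot⟩ := exists_prime_orderOf_dvd_card' (G := center P) 2 (ck ▸ dvd_pow_self 2 fun i => by
    have := Finite.one_lt_card (α := center P); simp [ck, i] at this)
  rw [← orderOf_coe, ← orderOf_coe] at ot
  have Pt : (P : Subgroup X) ≤ C_[t.1.1] := fun y i => mem_cent1.2 (congrArg Subtype.val (mem_center_iff.1 t.2 ⟨y, i⟩))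
  have c8 : Nat.card C_[t.1.1] ∣ 8 := (h _ ot).resolve_right fun i => by have := (n3.trans (card_dvd_of_le Pt)).trans i.2; omega
  have c8' : Nat.card C_[t.1.1] = 8 := Nat.dvd_antisymm c8 (n3.trans (card_dvd_of_le Pt))
  have D := d8 c8' (l.trans Pt) cU e fun i => by
    have := (c8' ▸ card_dvd_of_le (show C_[t.1.1] ≤ C_[g⁻¹ * z * g] from fun y j => mem_cent1.2 (i _ j _ (Pt zP)))).trans c12
    omega
  refine fin oz z3 ((Cfsg.Agent.S3035.result _ ot D).resolve_left fun top => ?_)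
  have od := H08.odd_card_oddCore X
  have tv : ∀ w ∈ U, w ≠ 1 → ∀ y ∈ oddCore X, y ∈ C_[w] → y = 1 := fun w i n y a b =>
    orderOf_eq_one_iff.1 (Nat.eq_one_of_dvd_coprimes ((Nat.coprime_two_left.2 od).pow_left 3)
      ((orderOf_dvd_natCard _ b).trans (hU w i n).2) (orderOf_dvd_natCard _ a))
  have iv : ∀ w ∈ U, w ≠ 1 → ∀ y ∈ oddCore X, w * y * w⁻¹ = y⁻¹ := fun w i n y a => by
    have f : MonoidHom.FixedPointFree (MulAut.conjNormal w : MulAut (oddCore X)) := fun y b =>
      Subtype.ext (tv w i n y y.2 (mem_cent1.2 (mul_inv_eq_iff_eq_mul.1 (congrArg Subtype.val b)).symm))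
    exact congrArg Subtype.val (congrFun (f.coe_eq_inv_of_involutive fun y => by
      rw [← MulAut.mul_apply, ← map_mul, e w i, map_one]; rfl) ⟨y, a⟩)
  have : Nontrivial U := Finite.one_lt_card_iff_nontrivial.1 (by omega)
  obtain ⟨a, a1⟩ := exists_ne (1 : U)
  obtain ⟨b, b1, ba⟩ : ∃ b : U, b ≠ 1 ∧ b ≠ a := by
    by_contra! k
    have := Nat.card_le_card_of_surjective (fun i : Bool => if i then a else 1) fun b => by
      by_cases q : b = 1
      exacts [⟨false, q.symm⟩, ⟨true, (k b q).symm⟩]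
    simp [cU] at this
  have o1 : oddCore X = ⊥ := eq_bot_iff.2 fun y i => tv _ (mul_mem a.2 b.2)
    (fun q => ba (Subtype.ext (mul_left_cancel (q.trans (e _ a.2).symm)))) y i (mem_cent1.2 (mul_inv_eq_iff_eq_mul.1 (by
      rw [show a.1 * b * y * (a.1 * b)⁻¹ = a * (b * y * (b : X)⁻¹) * (a : X)⁻¹ by group, iv _ b.2 (by simpa using b1) y i,
        iv _ a.2 (by simpa using a1) _ (inv_mem i), inv_inv])).symm)
  rw [o1, sup_bot_eq] at top
  have := z3.trans (card_dvd_of_le (top ▸ le_top : C_[z] ≤ C_[t.1.1]))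
  omega

end H15.S7X
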